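import Mathlib

/-! Permutation groups given by encoded permutations, with counting of roots of unity. -/

set_option autoImplicit false
set_option linter.style.haveILetI false

namespace CfsgLib.OrderType

/-- Entry of a code. -/
def dig (c i : ℕ) : ℕ := c / 64 ^ i % 64

/-- Encode a function on the first `n` naturals. -/
def enc : ℕ → (ℕ → ℕ) → ℕ
  | 0, _ => 0
  | k + 1, f => enc k f + f k * 64 ^ k

theorem enc_lt (f : ℕ → ℕ) : ∀ n, (∀ i < n, f i < 64) → enc n f < 64 ^ n
  | 0, _ => by simp [enc]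
  | k + 1, h => by
    have h1 := enc_lt f k fun i hi => h i (Nat.lt_succ_of_lt hi)
    have h2 := h k (Nat.lt_succ_self k)
    rw [enc, pow_succ]
    nlinarith

theorem dig_enc (f : ℕ → ℕ) : ∀ n, (∀ i < n, f i < 64) → ∀ i < n, dig (enc n f) i = f i
  | 0, _, i, hi => absurd hi (Nat.not_lt_zero i)
  | k + 1, h, i, hi => by
    have hk : ∀ i < k, f i < 64 := fun i hi => h i (Nat.lt_succ_of_lt hi)
    have hlt := enc_lt f k hk
    rcases Nat.lt_succ_iff_lt_or_eq.mp hi with hik | rfl
    · rw [← dig_enc f k hk i hik]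
      obtain ⟨c, rfl⟩ : ∃ c, k = i + (c + 1) := ⟨k - i - 1, by omega⟩
      rw [dig, dig, enc, show f (i + (c + 1)) * 64 ^ (i + (c + 1)) = (f (i + (c + 1)) * 64 ^ c * 64) * 64 ^ i by ring,
        Nat.add_mul_div_right _ _ (by positivity), Nat.add_mul_mod_self_right]
    · rw [dig, enc, Nat.add_mul_div_right _ _ (by positivity), Nat.div_eq_of_lt hlt, zero_add,
        Nat.mod_eq_of_lt (h i (Nat.lt_succ_self i))]

theorem enc_congr {f g : ℕ → ℕ} : ∀ n, (∀ i < n, f i = g i) → enc n f = enc n g
  | 0, _ => rfl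
  | k + 1, h => by
    rw [enc, enc, enc_congr k (fun i hi => h i (Nat.lt_succ_of_lt hi)), h k (Nat.lt_succ_self k)]

/-- Composition of codes. -/
def comp (n a b : ℕ) : ℕ := enc n fun i => dig a (dig b i)

/-- The identity code. -/
def idCode (n : ℕ) : ℕ := enc n id

variable {n : ℕ}

/-- Code of a permutation. -/
def encP (σ : Equiv.Perm (Fin n)) : ℕ := enc n fun i => if h : i < n then (σ ⟨i, h⟩ : ℕ) else 0

theorem dig_encP (hn : n ≤ 64) (σ : Equiv.Perm (Fin n)) (i : Fin n) : dig (encP σ) i = (σ i : ℕ) := by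
  rw [encP, dig_enc _ n (fun j hj => ?_) i i.2]
  · rw [dif_pos i.2]
  · rw [dif_pos hj]; exact lt_of_lt_of_le (σ ⟨j, hj⟩).2 hn

theorem encP_injective (hn : n ≤ 64) : Function.Injective (encP : Equiv.Perm (Fin n) → ℕ) := fun σ τ h =>
  Equiv.ext fun i => Fin.ext (by rw [← dig_encP hn σ i, h, dig_encP hn τ i])

theorem encP_mul (hn : n ≤ 64) (σ τ : Equiv.Perm (Fin n)) : encP (σ * τ) = comp n (encP σ) (encP τ) := by
  refine enc_congr n fun i hi => ?_
  rw [dif_pos hi, show dig (encP τ) i = (τ ⟨i, hi⟩ : ℕ) from dig_encP hn τ ⟨i, hi⟩, dig_encP hn σ (τ ⟨i, hi⟩)]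
  rfl

theorem encP_one : encP (1 : Equiv.Perm (Fin n)) = idCode n := enc_congr n fun i hi => by rw [dif_pos hi]; rfl

/-- Check that `a` and `b` are mutually inverse codes. -/
def chkGen (n a b : ℕ) : Bool :=
  (List.range n).all fun i => decide (dig a i < n) && decide (dig b i < n) && decide (dig a (dig b i) = i) &&
    decide (dig b (dig a i) = i)

theorem chkGen_spec {a b : ℕ} (h : chkGen n a b = true) (i : ℕ) (hi : i < n) :
    dig a i < n ∧ dig b i < n ∧ dig a (dig b i) = i ∧ dig b (dig a i) = i := by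
  have := List.all_eq_true.mp h i (List.mem_range.mpr hi)
  simp only [Bool.and_eq_true, decide_eq_true_eq] at this
  exact ⟨this.1.1.1, this.1.1.2, this.1.2, this.2⟩

/-- The permutation of a code. -/
def mkP (a b : ℕ) (h : chkGen n a b = true) : Equiv.Perm (Fin n) where
  toFun i := ⟨dig a i, (chkGen_spec h i i.2).1⟩
  invFun i := ⟨dig b i, (chkGen_spec h i i.2).2.1⟩
  left_inv i := Fin.ext (chkGen_spec h i i.2).2.2.2
  right_inv i := Fin.ext (chkGen_spec h i i.2).2.2.1

/-- The generators of a list of codes. -/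
def gensOf (n : ℕ) (cs : List (ℕ × ℕ)) : List (Equiv.Perm (Fin n)) :=
  cs.filterMap fun c => if h : chkGen n c.1 c.2 = true then some (mkP c.1 c.2 h) else none

/-- The code of a word in the generator codes. -/
def wordCode (n : ℕ) (cs : List (ℕ × ℕ)) : List ℕ → ℕ
  | [] => idCode n
  | k :: w => comp n (cs.getD k (idCode n, idCode n)).1 (wordCode n cs w)

/-- Well-formed generators. -/
def chkGens (n : ℕ) (cs : List (ℕ × ℕ)) : Bool :=
  cs.all fun c => chkGen n c.1 c.2 && decide (enc n (dig c.1) = c.1) && decide (enc n (dig c.2) = c.2)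

theorem mem_gensOf {cs : List (ℕ × ℕ)} (hn : n ≤ 64) (hcs : chkGens n cs = true) {c : ℕ × ℕ} (hc : c ∈ cs) :
    ∃ σ ∈ gensOf n cs, encP σ = c.1 ∧ encP σ⁻¹ = c.2 := by
  have h := List.all_eq_true.mp hcs c hc
  simp only [Bool.and_eq_true, decide_eq_true_eq] at h
  refine ⟨mkP c.1 c.2 h.1.1, List.mem_filterMap.mpr ⟨c, hc, by rw [dif_pos h.1.1]⟩, ?_, ?_⟩
  · exact (enc_congr n fun i hi => by rw [dif_pos hi]; rfl).trans h.1.2
  · exact (enc_congr n fun i hi => by rw [dif_pos hi]; rfl).trans h.2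

theorem encP_of_mem_gensOf {cs : List (ℕ × ℕ)} (hn : n ≤ 64) (hcs : chkGens n cs = true) {σ : Equiv.Perm (Fin n)}
    (hσ : σ ∈ gensOf n cs) : ∃ c ∈ cs, encP σ = c.1 ∧ encP σ⁻¹ = c.2 := by
  obtain ⟨c, hc, he⟩ := List.mem_filterMap.mp hσ
  by_cases h : chkGen n c.1 c.2 = true
  · rw [dif_pos h, Option.some_inj] at he
    subst he
    have h' := List.all_eq_true.mp hcs c hc
    simp only [Bool.and_eq_true, decide_eq_true_eq] at h'
    exact ⟨c, hc, (enc_congr n fun i hi => by rw [dif_pos hi]; rfl).trans h'.1.2,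
      (enc_congr n fun i hi => by rw [dif_pos hi]; rfl).trans h'.2⟩
  · rw [dif_neg h] at he; exact absurd he (by simp)

/-- The group generated. -/
def grpOf (n : ℕ) (cs : List (ℕ × ℕ)) : Subgroup (Equiv.Perm (Fin n)) := Subgroup.closure {σ | σ ∈ gensOf n cs}

theorem exists_word {cs : List (ℕ × ℕ)} (hn : n ≤ 64) (hcs : chkGens n cs = true) :
    ∀ w : List ℕ, ∃ σ ∈ grpOf n cs, encP σ = wordCode n cs w
  | [] => ⟨1, one_mem _, encP_one⟩
  | k :: w => by
    obtain ⟨τ, hτ, eτ⟩ := exists_word hn hcs w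
    by_cases hk : k < cs.length
    · obtain ⟨σ, hσ, eσ, -⟩ := mem_gensOf hn hcs (List.getElem_mem hk)
      refine ⟨σ * τ, mul_mem (Subgroup.subset_closure hσ) hτ, ?_⟩
      rw [encP_mul hn, eσ, eτ, wordCode, List.getD_eq_getElem _ _ hk]
    · refine ⟨τ, hτ, ?_⟩
      rw [wordCode, List.getD_eq_default _ _ (Nat.le_of_not_lt hk)]
      show encP τ = comp n (idCode n) (wordCode n cs w)
      rw [← eτ, ← encP_one, ← encP_mul hn, one_mul]

/-- Build the element list from a parent certificate. -/
def chkElts (n : ℕ) (cs : List (ℕ × ℕ)) (L : List ℕ) : List (ℕ × ℕ) → ℕ → Bool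
  | [], j => decide (L.length = j)
  | (k, g) :: r, j => decide (k < j) && decide (g < cs.length) &&
      decide (L.getD j 0 = comp n (cs.getD g (0, 0)).1 (L.getD k 0)) && chkElts n cs L r (j + 1)

theorem elts_realized {cs : List (ℕ × ℕ)} (hn : n ≤ 64) (hcs : chkGens n cs = true) (L : List ℕ) :
    ∀ (r : List (ℕ × ℕ)) (j : ℕ), chkElts n cs L r j = true → (∀ i < j, ∃ σ ∈ grpOf n cs, encP σ = L.getD i 0) →
      ∀ i < L.length, ∃ σ ∈ grpOf n cs, encP σ = L.getD i 0
  | [], j, h, hj, i, hi => hj i (by rw [← of_decide_eq_true h]; exact hi)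
  | (k, g) :: r, j, h, hj, i, hi => by
    simp only [chkElts, Bool.and_eq_true, decide_eq_true_eq] at h
    refine elts_realized hn hcs L r (j + 1) h.2 (fun i hi => ?_) i hi
    rcases Nat.lt_succ_iff_lt_or_eq.mp hi with hij | rfl
    · exact hj i hij
    · obtain ⟨⟨⟨hk, hg⟩, hval⟩, -⟩ := h
      obtain ⟨τ, hτ, eτ⟩ := hj k hk
      obtain ⟨σ, hσ, eσ, -⟩ := mem_gensOf hn hcs (List.getElem_mem hg)
      refine ⟨σ * τ, mul_mem (Subgroup.subset_closure hσ) hτ, ?_⟩
      rw [hval, encP_mul hn, eσ, eτ, List.getD_eq_getElem cs (0, 0) hg]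

/-- Powers of a code by repeated squaring. -/
def powCode (n c : ℕ) : List Bool → ℕ
  | [] => idCode n
  | b :: r => let h := powCode n c r; if b then comp n c (comp n h h) else comp n h h

def ofBits : List Bool → ℕ
  | [] => 0
  | b :: r => (if b then 1 else 0) + 2 * ofBits r

theorem encP_pow (hn : n ≤ 64) (σ : Equiv.Perm (Fin n)) : ∀ r : List Bool, powCode n (encP σ) r = encP (σ ^ ofBits r)
  | [] => by rw [powCode, ofBits, pow_zero, encP_one]
  | b :: r => by
    cases b
    · simp only [powCode, encP_pow hn σ r, ofBits, Bool.false_eq_true, if_false, zero_add, two_mul, pow_add, encP_mul hn]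
    · simp only [powCode, encP_pow hn σ r, ofBits, if_true, two_mul, pow_add, pow_one, encP_mul hn]

/-- Certificate for an order: the binary form of the order and of its maximal divisors. -/
abbrev OrdCert := ℕ × List Bool × List (ℕ × List Bool)

def chkOrd (n : ℕ) (c : ℕ) (o : OrdCert) : Bool :=
  decide (ofBits o.2.1 = o.1) && decide (0 < o.1) && decide (o.1 ∣ 168) && decide (powCode n c o.2.1 = idCode n) &&
    o.2.2.all (fun m => decide (ofBits m.2 = m.1) && !decide (powCode n c m.2 = idCode n)) &&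
    ([2, 3, 7] : List ℕ).all (fun p => !decide (p ∣ o.1) || (o.2.2.map Prod.fst).elem (o.1 / p))

theorem orderOf_of_chkOrd (hn : n ≤ 64) (σ : Equiv.Perm (Fin n)) {o : OrdCert} (h : chkOrd n (encP σ) o = true) :
    orderOf σ = o.1 := by
  simp only [chkOrd, Bool.and_eq_true, decide_eq_true_eq, List.all_eq_true, Bool.or_eq_true,
    Bool.not_eq_true', decide_eq_false_iff_not, List.elem_iff] at h
  obtain ⟨⟨⟨⟨⟨hb, h0⟩, hd⟩, hp⟩, hm⟩, hdiv⟩ := h
  refine orderOf_eq_of_pow_and_pow_div_prime h0 ?_ fun p hp' hpd => ?_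
  · refine encP_injective hn ?_
    rw [← hb, ← encP_pow hn, hp, encP_one]
  · have hp168 : p ∈ ([2, 3, 7] : List ℕ) := by
      have h168 : p ∈ (168 : ℕ).primeFactors := Nat.mem_primeFactors.mpr ⟨hp', hpd.trans hd, by norm_num⟩
      rw [show (168 : ℕ).primeFactors = {2, 3, 7} by
        rw [show (168 : ℕ) = 2 ^ 3 * 3 * 7 by norm_num, Nat.primeFactors_mul (by norm_num) (by norm_num),
          Nat.primeFactors_mul (by norm_num) (by norm_num), Nat.primeFactors_prime_pow (by norm_num) Nat.prime_two,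
          Nat.prime_three.primeFactors, (by norm_num : Nat.Prime 7).primeFactors]; decide] at h168
      simpa using h168
    rcases hdiv p hp168 with h1 | h1
    · exact absurd hpd h1
    · obtain ⟨m, hmm, hm1⟩ := List.mem_map.mp h1
      intro e
      obtain ⟨hm2, hm3⟩ := hm m hmm
      exact hm3 (by rw [encP_pow hn, hm2, hm1, e, encP_one])

theorem card_filter_getElem {α : Type} : ∀ (l : List α) (q : α → Bool),
    (Finset.univ.filter fun i : Fin l.length => q l[i.val] = true).card = l.countP q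
  | [], q => by simp
  | a :: l, q => by
    rw [List.countP_cons, ← card_filter_getElem l q]
    show (Finset.univ.filter fun i : Fin (l.length + 1) => q (a :: l)[i.val] = true).card = _
    rw [Fin.card_filter_univ_succ']
    simp only [Fin.val_zero, List.getElem_cons_zero, Function.comp_apply, Fin.val_succ, List.getElem_cons_succ]
    split <;> rename_i h <;> simp [h, add_comm]

/-- All the data of a group. -/
structure Data where
  deg : ℕ
  gens : List (ℕ × ℕ)
  elts : List ℕ
  parents : List (ℕ × ℕ)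
  ords : List OrdCert
  chunks : List (List ℕ)
  closeCert : List (List ℕ)

def chkData (D : Data) : Bool :=
  decide (D.deg ≤ 64) && chkGens D.deg D.gens && decide (D.elts.getD 0 0 = idCode D.deg) && decide (0 < D.elts.length) &&
    chkElts D.deg D.gens D.elts D.parents 1 &&
    decide (D.chunks.flatten = D.elts) && decide (D.closeCert.length = D.elts.length) &&
    (D.elts.zip D.closeCert).all (fun x => decide (x.2.length = D.gens.length) &&
      (D.gens.zip x.2).all fun g => (D.chunks.getD g.2 []).elem (comp D.deg g.1.1 x.1)) &&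
    decide D.elts.Nodup && decide (D.ords.length = D.elts.length) &&
    (D.elts.zip D.ords).all (fun x => chkOrd D.deg x.1 x.2)

/-- Number of solutions of `x ^ d = 1` read from the data. -/
def countD (D : Data) (d : ℕ) : ℕ := D.ords.countP fun o => decide (o.1 ∣ d)

abbrev GrpD (D : Data) := ↥(grpOf D.deg D.gens)

theorem count_eq {D : Data} (h : chkData D = true) :
    (∀ d : ℕ, Nat.card {x : GrpD D // x ^ d = 1} = countD D d) ∧ ∀ x : GrpD D, x ^ 168 = 1 := by
  classical
  simp only [chkData, Bool.and_eq_true, decide_eq_true_eq] at h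
  obtain ⟨⟨⟨⟨⟨⟨⟨⟨⟨⟨hn, hcs⟩, h0⟩, hlen⟩, hel⟩, hfl⟩, hcll⟩, hcl⟩, hnd⟩, hol⟩, hord⟩ := h
  have hclose : ∀ c ∈ D.elts, ∀ g ∈ D.gens, comp D.deg g.1 c ∈ D.elts := by
    intro c hc g hg
    obtain ⟨i, hi, rfl⟩ := List.getElem_of_mem hc
    obtain ⟨j, hj, rfl⟩ := List.getElem_of_mem hg
    have hzip := List.all_eq_true.mp hcl ((D.elts.zip D.closeCert)[i]'(by rw [List.length_zip, hcll, min_self]; exact hi))
      (List.getElem_mem _)
    simp only [List.getElem_zip, Bool.and_eq_true, decide_eq_true_eq] at hzip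
    have h2 := List.all_eq_true.mp hzip.2 ((D.gens.zip (D.closeCert[i]'(by rw [hcll]; exact hi)))[j]'(by
      rw [List.length_zip, hzip.1, min_self]; exact hj)) (List.getElem_mem _)
    simp only [List.getElem_zip, List.elem_iff] at h2
    suffices hs : comp D.deg (D.gens[j]).1 D.elts[i] ∈ D.chunks.flatten from (List.ext_getElem?_iff.mp hfl |> fun _ => by
      have := congrArg (fun l => comp D.deg (D.gens[j]).1 D.elts[i] ∈ l) hfl
      exact this.mp hs)
    generalize hq : (D.closeCert[i]'(by rw [hcll]; exact hi))[j]'(by rw [hzip.1]; exact hj) = q at h2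
    by_cases hql : q < D.chunks.length
    · rw [List.getD_eq_getElem _ _ hql] at h2
      exact List.mem_flatten.mpr ⟨_, List.getElem_mem hql, h2⟩
    · rw [List.getD_eq_default _ _ (Nat.le_of_not_lt hql)] at h2
      exact absurd h2 List.not_mem_nil
  have hreal := elts_realized hn hcs D.elts D.parents 1 hel fun i hi => ⟨1, one_mem _, by
    rw [Nat.lt_one_iff.mp hi, h0, encP_one]⟩
  have hall : ∀ x ∈ grpOf D.deg D.gens, encP x ∈ D.elts := by
    intro x hx
    let K : Submonoid (Equiv.Perm (Fin D.deg)) :=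
      { carrier := {x | ∀ c ∈ D.elts, comp D.deg (encP x) c ∈ D.elts}
        one_mem' := fun c hc => by
          obtain ⟨i, hi, rfl⟩ := List.getElem_of_mem hc
          obtain ⟨σ, -, e⟩ := hreal i hi
          rw [List.getD_eq_getElem _ _ hi] at e
          rw [← e, ← encP_mul hn, one_mul, e]
          exact List.getElem_mem hi
        mul_mem' := fun {a b} ha hb c hc => by
          obtain ⟨i, hi, rfl⟩ := List.getElem_of_mem hc
          obtain ⟨σ, -, e⟩ := hreal i hi
          rw [List.getD_eq_getElem _ _ hi] at e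
          have h1 := ha _ (hb _ hc)
          rw [← e, ← encP_mul hn, ← encP_mul hn] at h1
          rw [← e, ← encP_mul hn, mul_assoc]; exact h1 }
    have hx' : x ∈ Submonoid.closure ({σ | σ ∈ gensOf D.deg D.gens}) := by
      rw [← Subgroup.closure_toSubmonoid_of_finite]; exact hx
    have hK : x ∈ K := by
      refine (Submonoid.closure_le.mpr ?_) hx'
      intro s hs c hc
      obtain ⟨g, hg, eg, -⟩ := encP_of_mem_gensOf hn hcs hs
      rw [eg]
      exact hclose c hc g hg
    have h3 := hK (D.elts.getD 0 0) (by rw [List.getD_eq_getElem _ _ hlen]; exact List.getElem_mem hlen)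
    rwa [h0, ← encP_one, ← encP_mul hn, mul_one] at h3
  have hex : ∀ i : Fin D.elts.length, ∃ σ : GrpD D, encP (σ : Equiv.Perm (Fin D.deg)) = D.elts[i] := fun i => by
    obtain ⟨σ, hσ, e⟩ := hreal i i.2
    exact ⟨⟨σ, hσ⟩, by rw [e, List.getD_eq_getElem _ _ i.2]; rfl⟩
  choose el hel' using hex
  have hbij : Function.Bijective el := by
    refine ⟨fun i j e => ?_, fun x => ?_⟩
    · have : D.elts[i] = D.elts[j] := by rw [← hel' i, ← hel' j, e]
      exact Fin.ext ((hnd.getElem_inj_iff).mp this)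
    · obtain ⟨i, hi, e⟩ := List.getElem_of_mem (hall x.1 x.2)
      refine ⟨⟨i, hi⟩, Subtype.ext (encP_injective hn ?_)⟩
      rw [hel']; exact e
  have hio : ∀ i : Fin D.elts.length, orderOf (el i) = (D.ords[i.val]'(by rw [hol]; exact i.2)).1 := fun i => by
    rw [← Subgroup.orderOf_coe]
    refine orderOf_of_chkOrd hn _ ?_
    have h4 := List.all_eq_true.mp hord ((D.elts.zip D.ords)[i.val]'(by rw [List.length_zip, hol, min_self]; exact i.2))
      (List.getElem_mem _)
    rw [hel']
    simpa using h4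
  refine ⟨fun d => ?_, fun x => ?_⟩
  · rw [← Nat.card_congr ((Equiv.ofBijective el hbij).subtypeEquiv (p := fun i => (el i) ^ d = 1) fun i => Iff.rfl)]
    rw [Nat.card_eq_fintype_card, Fintype.card_subtype, countD]
    have e : ∀ i : Fin D.elts.length, (el i) ^ d = 1 ↔ (D.ords[i.val]'(by rw [hol]; exact i.2)).1 ∣ d := fun i => by
      rw [← orderOf_dvd_iff_pow_eq_one, hio]
    simp only [e]
    rw [← card_filter_getElem D.ords (fun o : OrdCert => decide (o.1 ∣ d))]
    refine Finset.card_equiv (finCongr hol.symm) fun i => ?_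
    simp
  · obtain ⟨i, rfl⟩ := hbij.2 x
    rw [← orderOf_dvd_iff_pow_eq_one, hio]
    have h4 := List.all_eq_true.mp hord ((D.elts.zip D.ords)[i.val]'(by rw [List.length_zip, hol, min_self]; exact i.2))
      (List.getElem_mem _)
    simp only [chkOrd, Bool.and_eq_true, decide_eq_true_eq, List.getElem_zip] at h4
    exact h4.1.1.1.2

end CfsgLib.OrderType
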