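import Cfsg.Agent.Lib.OrderType.Products

/-! Data for one factor of the order type example. -/

set_option autoImplicit false
set_option maxRecDepth 100000

namespace CfsgLib.OrderType.G4

def chunk0 : List ℕ := [8256, 129, 4098]
def ords0 : List OrdCert := [(1, [true], []),
  (3, [true, true], [(1, [true])]),
  (3, [true, true], [(1, [true])])]
def close0 : List (List ℕ) := [[0], [0], [0]]
def par0 : List (ℕ × ℕ) := [(0, 0), (1, 0)]

/-- The data. -/
def data : Data where
  deg := 3
  gens := [(129, 4098)]
  elts := [chunk0].flatten
  chunks := [chunk0]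
  parents := [par0].flatten
  ords := [ords0].flatten
  closeCert := [close0].flatten

theorem data_ok : chkData data = true := by decide +kernel

theorem vec : countVec data = [1, 1, 3, 1, 3, 1, 1, 3, 1, 3, 3, 1, 3, 1, 3, 3] := by decide +kernel

theorem solv_ok : chkSolv data [[]] = true := by decide +kernel

theorem realizes : Realizes Solv [1, 1, 3, 1, 3, 1, 1, 3, 1, 3, 3, 1, 3, 1, 3, 3] :=
  vec ▸ realizes_data data_ok (solvable_of_chk solv_ok)

end CfsgLib.OrderType.G4
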