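import Cfsg.Agent.Lib.OrderType.Products

/-! Data for one factor of the order type example. -/

set_option autoImplicit false
set_option maxRecDepth 100000

namespace CfsgLib.OrderType.G6

def chunk0 : List ℕ := [417753473088, 6527398017, 68821467330, 138514288899, 208322715972, 278132949381, 347943211014]
def ords0 : List OrdCert := [(1, [true], []),
  (7, [true, true, true], [(1, [true])]),
  (7, [true, true, true], [(1, [true])]),
  (7, [true, true, true], [(1, [true])]),
  (7, [true, true, true], [(1, [true])]),
  (7, [true, true, true], [(1, [true])]),
  (7, [true, true, true], [(1, [true])])]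
def close0 : List (List ℕ) := [[0], [0], [0], [0], [0], [0], [0]]
def par0 : List (ℕ × ℕ) := [(0, 0), (1, 0), (2, 0), (3, 0), (4, 0), (5, 0)]

/-- The data. -/
def data : Data where
  deg := 7
  gens := [(6527398017, 347943211014)]
  elts := [chunk0].flatten
  chunks := [chunk0]
  parents := [par0].flatten
  ords := [ords0].flatten
  closeCert := [close0].flatten

theorem data_ok : chkData data = true := by decide +kernel

theorem vec : countVec data = [1, 1, 1, 1, 1, 7, 1, 1, 7, 7, 1, 7, 7, 7, 7, 7] := by decide +kernel

theorem solv_ok : chkSolv data [[]] = true := by decide +kernel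

theorem realizes : Realizes Solv [1, 1, 1, 1, 1, 7, 1, 1, 7, 7, 1, 7, 7, 7, 7, 7] :=
  vec ▸ realizes_data data_ok (solvable_of_chk solv_ok)

end CfsgLib.OrderType.G6
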