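import Cfsg.Agent.Lib.OrderType.G0
import Cfsg.Agent.Lib.OrderType.G1
import Cfsg.Agent.Lib.OrderType.G2
import Cfsg.Agent.Lib.OrderType.G3
import Cfsg.Agent.Lib.OrderType.G4
import Cfsg.Agent.Lib.OrderType.G5
import Cfsg.Agent.Lib.OrderType.G6
import Cfsg.Agent.Lib.OrderType.G7
import Cfsg.Agent.Lib.OrderType.G8
import Cfsg.Agent.Lib.OrderType.G9
import Cfsg.Agent.Lib.OrderType.G10
import Cfsg.Agent.Lib.OrderType.G11
import Cfsg.Agent.Lib.OrderType.G12
import Cfsg.Agent.Lib.OrderType.G13
import Cfsg.Agent.Lib.OrderType.G14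
import Cfsg.Agent.Lib.OrderType.G15
import Cfsg.Agent.Lib.OrderType.G16
import Cfsg.Agent.Lib.OrderType.G17
import Cfsg.Agent.Lib.OrderType.G18
import Cfsg.Agent.Lib.OrderType.G19
import Cfsg.Agent.Lib.OrderType.G20
import Cfsg.Agent.Lib.OrderType.G21
import Cfsg.Agent.Lib.OrderType.G22
import Cfsg.Agent.Lib.OrderType.G23
import Cfsg.Agent.Lib.OrderType.G24
import Cfsg.Agent.Lib.OrderType.G25
import Cfsg.Agent.Lib.OrderType.G26

/-! A solvable and a nonsolvable group of the same order type. -/

set_option autoImplicit false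
set_option maxRecDepth 100000
set_option linter.style.haveILetI false

namespace CfsgLib.OrderType

open scoped commutatorElement

theorem mul_nonSolv {P : ∀ (G : Type) [Group G], Prop} {u v : List ℕ} (hu : Realizes NonSolv u) (hv : Realizes P v) :
    Realizes NonSolv (vecMul u v) := by
  obtain ⟨G, _, _, hG, hG1, rfl⟩ := hu
  obtain ⟨H, _, _, -, hH1, rfl⟩ := hv
  refine ⟨G × H, inferInstance, inferInstance, fun h => ?_, fun x => Prod.ext (hG1 _) (hH1 _), ?_⟩
  · haveI : Group.IsSolvable (G × H) := h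
    exact hG (Group.isSolvable_of_surjective (f := MonoidHom.fst G H) Prod.fst_surjective)
  · simp only [vecMul, divs, List.map_cons, List.map_nil, List.zipWith_cons_cons, List.zipWith_nil_left, card_prod_roots]

/-- Check that the generators are commutators of given words. -/
def chkCom (D : Data) (cert : List (List ℕ × List ℕ × List ℕ × List ℕ)) : Bool :=
  decide (D.deg ≤ 64) && chkGens D.deg D.gens && decide (cert.length = D.gens.length) &&
  (cert.zip D.gens).all fun x =>
    decide (comp D.deg (wordCode D.deg D.gens x.1.1) (comp D.deg (wordCode D.deg D.gens x.1.2.1)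
      (comp D.deg (wordCode D.deg D.gens x.1.2.2.1) (wordCode D.deg D.gens x.1.2.2.2))) = x.2.1) &&
    decide (comp D.deg (wordCode D.deg D.gens x.1.1) (wordCode D.deg D.gens x.1.2.2.1) = idCode D.deg) &&
    decide (comp D.deg (wordCode D.deg D.gens x.1.2.1) (wordCode D.deg D.gens x.1.2.2.2) = idCode D.deg)

theorem not_solvable_of_com {D : Data} {cert : List (List ℕ × List ℕ × List ℕ × List ℕ)} (h : chkCom D cert = true)
    (hne : D.gens.any (fun c => !decide (c.1 = idCode D.deg)) = true) : NonSolv (GrpD D) := by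
  simp only [chkCom, Bool.and_eq_true, decide_eq_true_eq] at h
  obtain ⟨⟨⟨hn, hcs⟩, hlen⟩, hall⟩ := h
  intro hs
  haveI : Group.IsSolvable (GrpD D) := hs
  haveI : Nontrivial (GrpD D) := by
    obtain ⟨c, hc, hc1⟩ := List.any_eq_true.mp hne
    obtain ⟨σ, hσ, eσ, -⟩ := mem_gensOf hn hcs hc
    refine ⟨⟨σ, Subgroup.subset_closure hσ⟩, 1, fun e => ?_⟩
    have : σ = 1 := congrArg Subtype.val e
    simp [← eσ, this, encP_one] at hc1
  have hperf : commutator (GrpD D) = ⊤ := by
    rw [eq_top_iff]
    rintro ⟨s, hs⟩ -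
    refine Subgroup.closure_induction (p := fun s hs => (⟨s, hs⟩ : GrpD D) ∈ commutator (GrpD D))
      (fun x hx => ?_) (one_mem _) (fun _ _ _ _ hx hy => mul_mem hx hy)
      (fun _ _ hx => Subgroup.inv_mem (commutator (GrpD D)) hx) hs
    obtain ⟨c, hc, ec, -⟩ := encP_of_mem_gensOf hn hcs hx
    obtain ⟨i, hi, rfl⟩ := List.getElem_of_mem hc
    have h1 := List.all_eq_true.mp hall ((cert.zip D.gens)[i]'(by rw [List.length_zip, hlen, min_self]; exact hi))
      (List.getElem_mem _)
    simp only [List.getElem_zip, Bool.and_eq_true, decide_eq_true_eq] at h1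
    obtain ⟨⟨h2, h3⟩, h4⟩ := h1
    obtain ⟨a, ha, ea⟩ := exists_word hn hcs (cert[i]'(by omega)).1
    obtain ⟨b, hb, eb⟩ := exists_word hn hcs (cert[i]'(by omega)).2.1
    obtain ⟨a', ha', ea'⟩ := exists_word hn hcs (cert[i]'(by omega)).2.2.1
    obtain ⟨b', hb', eb'⟩ := exists_word hn hcs (cert[i]'(by omega)).2.2.2
    have e1 : a' = a⁻¹ := (inv_eq_of_mul_eq_one_right (encP_injective hn (by rw [encP_mul hn, ea, ea', h3, encP_one]))).symm
    have e2 : b' = b⁻¹ := (inv_eq_of_mul_eq_one_right (encP_injective hn (by rw [encP_mul hn, eb, eb', h4, encP_one]))).symm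
    have e3 : x = a * (b * (a' * b')) := encP_injective hn (by rw [encP_mul hn, encP_mul hn, encP_mul hn, ea, eb, ea', eb', h2, ec])
    have : (⟨x, Subgroup.subset_closure hx⟩ : GrpD D) = ⁅(⟨a, ha⟩ : GrpD D), ⟨b, hb⟩⁆ := Subtype.ext (by
      show x = _; rw [e3, e1, e2]; simp [commutatorElement_def, mul_assoc])
    rw [this]
    exact Subgroup.commutator_mem_commutator (Subgroup.mem_top _) (Subgroup.mem_top _)
  exact absurd hperf (ne_of_lt (Group.IsSolvable.commutator_lt_top_of_nontrivial _))

theorem realizes_non : Realizes NonSolv (countVec G26.data) :=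
  realizes_data G26.data_ok (not_solvable_of_com (cert := G26.comCert) (by decide +kernel) (by decide +kernel))

theorem same_order_type : ∃ (G : Type) (_ : Group G) (_ : Finite G) (H : Type) (_ : Group H) (_ : Finite H),
    Group.IsSolvable G ∧ ¬ Group.IsSolvable H ∧
      ∀ n : ℕ, Nat.card {g : G // orderOf g = n} = Nat.card {h : H // orderOf h = n} := by
  have hs := (((((((((((G5.realizes.pow 12).mul (G6.realizes.pow 4) solv_prod).mul (G9.realizes.pow 36) solv_prod).mul (G10.realizes.pow 12) solv_prod).mul (G11.realizes.pow 12) solv_prod).mul (G15.realizes.pow 12) solv_prod).mul (G16.realizes.pow 20) solv_prod).mul (G17.realizes.pow 8) solv_prod).mul (G20.realizes.pow 12) solv_prod).mul (G21.realizes.pow 12) solv_prod).mul (G24.realizes.pow 16) solv_prod).mul (G25.realizes.pow 12) solv_prod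
  have hh := mul_nonSolv (mul_nonSolv (mul_nonSolv (mul_nonSolv (mul_nonSolv (mul_nonSolv (mul_nonSolv (mul_nonSolv (mul_nonSolv (mul_nonSolv (mul_nonSolv (mul_nonSolv (realizes_non) realizes_non) realizes_non) realizes_non) realizes_non) realizes_non) realizes_non) realizes_non) realizes_non) realizes_non) realizes_non) realizes_non) ((((((((((((((G0.realizes.pow 17).mul (G1.realizes.pow 12) solv_prod).mul (G2.realizes.pow 2) solv_prod).mul (G3.realizes.pow 20) solv_prod).mul (G4.realizes.pow 12) solv_prod).mul (G7.realizes.pow 16) solv_prod).mul (G8.realizes.pow 30) solv_prod).mul (G12.realizes.pow 2) solv_prod).mul (G13.realizes.pow 12) solv_prod).mul (G14.realizes.pow 12) solv_prod).mul (G18.realizes.pow 24) solv_prod).mul (G19.realizes.pow 12) solv_prod).mul (G22.realizes.pow 12) solv_prod).mul (G23.realizes.pow 12) solv_prod)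
  obtain ⟨G, _, _, hG, hG1, eG⟩ := hs
  obtain ⟨H, _, _, hH, hH1, eH⟩ := hh
  refine ⟨G, inferInstance, inferInstance, H, inferInstance, inferInstance, hG, hH,
    orderType_eq hG1 hH1 (eG.trans (Eq.trans ?_ eH.symm))⟩
  decide +kernel

end CfsgLib.OrderType
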