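import Cfsg.Agent.Lib.OrderType.Products

/-! Data for one factor of the order type example. -/

set_option autoImplicit false
set_option maxRecDepth 100000

namespace CfsgLib.OrderType.G0

def chunk0 : List ℕ := [794688, 4227, 536577, 262338]
def ords0 : List OrdCert := [(1, [true], []),
  (2, [false, true], [(1, [true])]),
  (2, [false, true], [(1, [true])]),
  (2, [false, true], [(1, [true])])]
def close0 : List (List ℕ) := [[0, 0], [0, 0], [0, 0], [0, 0]]
def par0 : List (ℕ × ℕ) := [(0, 0), (0, 1), (1, 1)]

/-- The data. -/
def data : Data where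
  deg := 4
  gens := [(4227, 4227), (536577, 536577)]
  elts := [chunk0].flatten
  chunks := [chunk0]
  parents := [par0].flatten
  ords := [ords0].flatten
  closeCert := [close0].flatten

theorem data_ok : chkData data = true := by decide +kernel

theorem vec : countVec data = [1, 4, 1, 4, 4, 1, 4, 4, 4, 1, 4, 4, 4, 4, 4, 4] := by decide +kernel

theorem solv_ok : chkSolv data [[], [[0]]] = true := by decide +kernel

theorem realizes : Realizes Solv [1, 4, 1, 4, 4, 1, 4, 4, 4, 1, 4, 4, 4, 4, 4, 4] :=
  vec ▸ realizes_data data_ok (solvable_of_chk solv_ok)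

end CfsgLib.OrderType.G0
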