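import Cfsg.Agent.Lib.OrderType.Codes

/-! Products of groups with prescribed numbers of roots of unity. -/

set_option autoImplicit false
set_option linter.style.haveILetI false

namespace CfsgLib.OrderType

/-- The divisors of 168. -/
def divs : List ℕ := [1, 2, 3, 4, 6, 7, 8, 12, 14, 21, 24, 28, 42, 56, 84, 168]

def countVec (D : Data) : List ℕ := divs.map (countD D)

def vecMul (u v : List ℕ) : List ℕ := List.zipWith (· * ·) u v

def vecPow (u : List ℕ) : ℕ → List ℕ
  | 0 => List.replicate 16 1
  | k + 1 => vecMul (vecPow u k) u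

/-- Check solvability: each generator normalizes the subgroup of the earlier ones. -/
def chkSolv (D : Data) (cert : List (List (List ℕ))) : Bool :=
  decide (D.deg ≤ 64) && chkGens D.deg D.gens &&
  (List.range D.gens.length).all fun j => (List.range j).all fun i =>
    (((cert.getD j []).getD i []).all fun k => decide (k < j)) &&
    decide (comp D.deg (D.gens.getD j (0, 0)).1 (comp D.deg (D.gens.getD i (0, 0)).1 (D.gens.getD j (0, 0)).2) =
      wordCode D.deg D.gens ((cert.getD j []).getD i []))

theorem solvable_closure_chain {G : Type*} [Group G] [Finite G] : ∀ (l : List G),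
    (∀ (j : ℕ) (hj : j < l.length) (i : ℕ) (hi : i < j),
      l[j] * (l[i]'(hi.trans hj)) * (l[j])⁻¹ ∈ Subgroup.closure {x | x ∈ l.take j}) →
    Group.IsSolvable ↥(Subgroup.closure {x | x ∈ l}) := by
  intro l
  induction l using List.reverseRecOn with
  | nil =>
    intro _
    have : Subgroup.closure {x : G | x ∈ ([] : List G)} = ⊥ := by simp
    rw [this]
    exact isSolvable_of_comm fun a b => Subsingleton.elim _ _
  | append_singleton l a ih =>
    intro h
    haveI : Group.IsSolvable ↥(Subgroup.closure {x : G | x ∈ l}) := ih fun j hj i hi => by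
      have h1 := h j (by rw [List.length_append]; omega) i hi
      rwa [List.getElem_append_left hj, List.getElem_append_left (hi.trans hj),
        List.take_append_of_le_length hj.le] at h1
    set H := Subgroup.closure {x : G | x ∈ l} with hH
    set K := Subgroup.closure {x : G | x ∈ l ++ [a]} with hK
    have ha : a ∈ Subgroup.normalizer (H : Set G) := by
      refine Subgroup.mem_normalizer_fintype fun x hx => ?_
      have hmap : H.map (MulAut.conj a).toMonoidHom ≤ H := by
        rw [hH, MonoidHom.map_closure, Subgroup.closure_le]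
        rintro _ ⟨y, hy, rfl⟩
        obtain ⟨i, hi, rfl⟩ := List.getElem_of_mem hy
        have h1 := h l.length (by rw [List.length_append]; simp) i hi
        rw [List.getElem_append_left hi, List.getElem_concat_length rfl, List.take_left] at h1
        exact h1
      exact hmap ⟨x, hx, rfl⟩
    have hHK : H ≤ K := Subgroup.closure_mono fun x hx => List.mem_append_left _ hx
    have hKN : K ≤ Subgroup.normalizer (H : Set G) := by
      rw [hK, Subgroup.closure_le]
      intro x hx
      rcases List.mem_append.mp hx with hx | hx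
      · exact Subgroup.le_normalizer (Subgroup.subset_closure hx)
      · rw [List.mem_singleton] at hx; exact hx ▸ ha
    haveI : (H.subgroupOf K).Normal := (Subgroup.normal_subgroupOf_iff_le_normalizer hHK).mpr hKN
    haveI hc : IsCyclic (↥K ⧸ H.subgroupOf K) := by
      have haK : a ∈ K := Subgroup.subset_closure (List.mem_append_right _ (List.mem_singleton_self a))
      refine ⟨⟨QuotientGroup.mk ⟨a, haK⟩, fun q => ?_⟩⟩
      obtain ⟨⟨k, hk⟩, rfl⟩ := QuotientGroup.mk_surjective q
      refine Subgroup.closure_induction (p := fun k hk => (QuotientGroup.mk (⟨k, hk⟩ : ↥K) : ↥K ⧸ H.subgroupOf K) ∈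
        Subgroup.zpowers (QuotientGroup.mk ⟨a, haK⟩)) (fun x hx => ?_) (one_mem _) (fun x y _ _ hx hy => mul_mem hx hy)
        (fun x _ hx => Subgroup.inv_mem (Subgroup.zpowers (QuotientGroup.mk (⟨a, haK⟩ : ↥K) : ↥K ⧸ H.subgroupOf K)) hx) hk
      rcases List.mem_append.mp hx with hx | hx
      · have : (QuotientGroup.mk (⟨x, Subgroup.subset_closure (List.mem_append_left _ hx)⟩ : ↥K) : ↥K ⧸ H.subgroupOf K) = 1 :=
          (QuotientGroup.eq_one_iff _).mpr (Subgroup.subset_closure hx)
        rw [this]; exact one_mem _
      · rw [List.mem_singleton] at hx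
        subst hx
        exact Subgroup.mem_zpowers _
    haveI : Group.IsSolvable ↥(H.subgroupOf K) :=
      solvable_of_solvable_injective (f := (Subgroup.subgroupOfEquivOfLe hHK).toMonoidHom) (MulEquiv.injective _)
    haveI : Group.IsSolvable (↥K ⧸ H.subgroupOf K) := isSolvable_of_comm fun x y => by
      letI := hc.commGroup
      exact mul_comm x y
    refine solvable_of_ker_le_range (H.subgroupOf K).subtype (QuotientGroup.mk' (H.subgroupOf K)) ?_
    rw [QuotientGroup.ker_mk', Subgroup.range_subtype]

theorem gensOf_eq_map {n : ℕ} {cs : List (ℕ × ℕ)} (hcs : chkGens n cs = true) :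
    (gensOf n cs).length = cs.length ∧ ∀ (i : ℕ) (hi : i < (gensOf n cs).length) (hi' : i < cs.length),
      encP (gensOf n cs)[i] = cs[i].1 ∧ encP ((gensOf n cs)[i])⁻¹ = cs[i].2 := by
  induction cs with
  | nil => simp [gensOf]
  | cons c cs ih =>
    have h0 := hcs
    rw [chkGens, List.all_cons, Bool.and_eq_true] at h0
    obtain ⟨hc, hrest⟩ := h0
    simp only [Bool.and_eq_true, decide_eq_true_eq] at hc
    obtain ⟨hl, hi⟩ := ih hrest
    have e : gensOf n (c :: cs) = mkP c.1 c.2 hc.1.1 :: gensOf n cs := by
      rw [gensOf, List.filterMap_cons, dif_pos hc.1.1]; rfl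
    constructor
    · rw [e, List.length_cons, List.length_cons, hl]
    · intro i hi1 hi2
      simp only [e]
      match i with
      | 0 => exact ⟨(enc_congr n fun i hi => by rw [dif_pos hi]; rfl).trans hc.1.2,
          (enc_congr n fun i hi => by rw [dif_pos hi]; rfl).trans hc.2⟩
      | i + 1 =>
        simp only [List.getElem_cons_succ]
        exact hi i (by rw [e, List.length_cons] at hi1; omega) (by rw [List.length_cons] at hi2; omega)

theorem solvable_of_chk {D : Data} {cert : List (List (List ℕ))} (h : chkSolv D cert = true) :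
    Group.IsSolvable (GrpD D) := by
  simp only [chkSolv, Bool.and_eq_true, decide_eq_true_eq, List.all_eq_true, List.mem_range] at h
  obtain ⟨⟨hn, hcs⟩, hc⟩ := h
  obtain ⟨hl, hval⟩ := gensOf_eq_map hcs
  refine solvable_closure_chain (gensOf D.deg D.gens) fun j hj i hi => ?_
  obtain ⟨hw, hcode⟩ := hc j (by omega) i hi
  have key : ∀ w : List ℕ, (∀ k ∈ w, k < j) →
      ∃ σ ∈ Subgroup.closure {x | x ∈ (gensOf D.deg D.gens).take j}, encP σ = wordCode D.deg D.gens w := by
    intro w
    induction w with
    | nil => exact fun _ => ⟨1, one_mem _, encP_one⟩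
    | cons k w ih =>
      intro hk
      obtain ⟨τ, hτ, eτ⟩ := ih fun m hm => hk m (List.mem_cons_of_mem _ hm)
      have hkj := hk k List.mem_cons_self
      refine ⟨(gensOf D.deg D.gens)[k]'(by omega) * τ, mul_mem (Subgroup.subset_closure ?_) hτ, ?_⟩
      · exact List.mem_take_iff_getElem.mpr ⟨k, by omega, rfl⟩
      · rw [encP_mul hn, eτ, (hval k (by omega) (by omega)).1, wordCode, List.getD_eq_getElem _ _ (by omega : k < D.gens.length)]
  obtain ⟨σ, hσ, eσ⟩ := key _ hw
  convert hσ using 1
  refine encP_injective hn ?_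
  rw [eσ, ← hcode, mul_assoc, encP_mul hn, encP_mul hn, (hval j hj (by omega)).1, (hval j hj (by omega)).2,
    (hval i (by omega) (by omega)).1, List.getD_eq_getElem _ _ (by omega : j < D.gens.length),
    List.getD_eq_getElem _ _ (by omega : i < D.gens.length)]

/-- A finite group realizing a vector of root counts. -/
def Realizes (P : ∀ (G : Type) [Group G], Prop) (v : List ℕ) : Prop :=
  ∃ (G : Type) (_ : Group G) (_ : Finite G), P G ∧ (∀ x : G, x ^ 168 = 1) ∧
    divs.map (fun d => Nat.card {x : G // x ^ d = 1}) = v

abbrev Solv (G : Type) [Group G] : Prop := Group.IsSolvable G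
abbrev NonSolv (G : Type) [Group G] : Prop := ¬ Group.IsSolvable G

theorem card_prod_roots (G H : Type) [Group G] [Group H] (d : ℕ) :
    Nat.card {x : G × H // x ^ d = 1} = Nat.card {x : G // x ^ d = 1} * Nat.card {x : H // x ^ d = 1} := by
  rw [← Nat.card_prod]
  exact Nat.card_congr ((Equiv.subtypeEquivRight fun x => by rw [Prod.ext_iff]; rfl).trans (Equiv.subtypeProdEquivProd (p := fun a : G => a ^ d = 1) (q := fun b : H => b ^ d = 1)))

theorem Realizes.mul {P Q : ∀ (G : Type) [Group G], Prop} {u v : List ℕ} (hu : Realizes P u) (hv : Realizes Solv v)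
    (hPQ : ∀ (G H : Type) [Group G] [Group H], P G → Solv H → Q (G × H)) : Realizes Q (vecMul u v) := by
  obtain ⟨G, _, _, hG, hG1, rfl⟩ := hu
  obtain ⟨H, _, _, hH, hH1, rfl⟩ := hv
  refine ⟨G × H, inferInstance, inferInstance, hPQ G H hG hH, fun x => Prod.ext (hG1 _) (hH1 _), ?_⟩
  simp only [vecMul, divs, List.map_cons, List.map_nil, List.zipWith_cons_cons, List.zipWith_nil_left, card_prod_roots]

theorem solv_prod (G H : Type) [Group G] [Group H] (hG : Solv G) (hH : Solv H) : Solv (G × H) := by
  haveI := hG; haveI := hH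
  exact inferInstance

theorem nonsolv_prod (G H : Type) [Group G] [Group H] (hG : NonSolv G) (_hH : Solv H) : NonSolv (G × H) := fun h => by
  haveI : Group.IsSolvable (G × H) := h
  exact hG (solvable_of_surjective (f := MonoidHom.fst G H) Prod.fst_surjective)

theorem realizes_one : Realizes Solv (List.replicate 16 1) := by
  refine ⟨Unit, inferInstance, inferInstance, isSolvable_of_comm fun a b => rfl, fun _ => rfl, ?_⟩
  simp [divs]

theorem Realizes.pow {v : List ℕ} (hv : Realizes Solv v) : ∀ k, Realizes Solv (vecPow v k)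
  | 0 => realizes_one
  | k + 1 => (Realizes.pow hv k).mul hv solv_prod

theorem realizes_data {P : ∀ (G : Type) [Group G], Prop} {D : Data} (h : chkData D = true) (hP : P (GrpD D)) :
    Realizes P (countVec D) :=
  ⟨GrpD D, inferInstance, inferInstance, hP, (count_eq h).2, by simp only [(count_eq h).1]; rfl⟩

theorem orderType_eq {G H : Type} [Group G] [Group H] [Finite G] [Finite H]
    (hG : ∀ x : G, x ^ 168 = 1) (hH : ∀ x : H, x ^ 168 = 1)
    (h : divs.map (fun d => Nat.card {x : G // x ^ d = 1}) = divs.map (fun d => Nat.card {x : H // x ^ d = 1})) (n : ℕ) :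
    Nat.card {g : G // orderOf g = n} = Nat.card {g : H // orderOf g = n} := by
  classical
  have hroots : ∀ d : ℕ, Nat.card {x : G // x ^ d = 1} = Nat.card {x : H // x ^ d = 1} := by
    intro d
    have hg : ∀ {K : Type} [Group K] (_ : ∀ x : K, x ^ 168 = 1),
        Nat.card {x : K // x ^ d = 1} = Nat.card {x : K // x ^ Nat.gcd d 168 = 1} := fun {K} _ hK =>
      Nat.card_congr (Equiv.subtypeEquivRight fun x =>
        ⟨fun h => pow_gcd_eq_one.mpr ⟨h, hK x⟩, fun h => by
          obtain ⟨c, hc⟩ := Nat.gcd_dvd_left d 168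
          rw [hc, pow_mul, h, one_pow]⟩)
    rw [hg hG, hg hH]
    have hm : Nat.gcd d 168 ∈ divs := by
      have : ∀ k ∈ (168 : ℕ).divisors, k ∈ divs := by decide +kernel
      exact this _ (Nat.mem_divisors.mpr ⟨Nat.gcd_dvd_right d 168, by norm_num⟩)
    exact List.map_eq_map_iff.mp h _ hm
  induction n using Nat.strong_induction_on with
  | _ n ih =>
    rcases Nat.eq_zero_or_pos n with rfl | hn
    · have z : ∀ (K : Type) [Group K] [Finite K], Nat.card {g : K // orderOf g = 0} = 0 := fun K _ _ => by
        haveI : IsEmpty {g : K // orderOf g = 0} := ⟨fun g => (orderOf_pos g.1).ne' g.2⟩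
        exact Nat.card_of_isEmpty
      rw [z, z]
    · have hsum : ∀ (K : Type) [Group K] [Finite K], ∑ m ∈ n.divisors, Nat.card {g : K // orderOf g = m} =
          Nat.card {g : K // g ^ n = 1} := fun K _ _ => by
        haveI := Fintype.ofFinite K
        simp only [Nat.card_eq_fintype_card, Fintype.card_subtype]
        exact sum_card_orderOf_eq_card_pow_eq_one hn.ne'
      have h1 := hsum G
      rw [hroots n, ← hsum H, ← Nat.cons_self_properDivisors hn.ne', Finset.sum_cons, Finset.sum_cons,
        Finset.sum_congr rfl (fun m hm => ih m (Nat.mem_properDivisors.mp hm).2)] at h1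
      exact Nat.add_right_cancel h1

end CfsgLib.OrderType
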